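import Mathlib

/-!
# A transitive linear group over `𝔽₃` with a normal fixed-point-free `Q₈` has degree nine

Let `Γ` act linearly on the `𝔽₃`-space `V`, transitively on the nonzero vectors, and let `Q ≅ Q₈` be a
normal subgroup of `Γ` acting fixed-point-freely. Then `V` has exactly nine elements.
-/

set_option autoImplicit false
set_option linter.unusedSectionVars false

namespace Cfsg.Agent.Lib.GagolaSol.Q8Dim

open QuaternionGroup

section Linear

variable {V : Type*} [AddCommGroup V] [Module (ZMod 3) V]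
variable {I J : V →ₗ[ZMod 3] V}

theorem sq_add_one_ne (c : ZMod 3) : c ^ 2 + 1 ≠ 0 := by
  revert c; decide

theorem sq_add_sq_ne {p q : ZMod 3} (h : ¬ (p = 0 ∧ q = 0)) : p ^ 2 + q ^ 2 ≠ 0 := by
  revert p q; decide

/-- A vector fixed up to scalar by a square root of `-1` vanishes. -/
theorem eq_zero_of_eigen {v : V} {c : ZMod 3} (hI : ∀ w, I (I w) = -w) (h : I v = c • v) : v = 0 := by
  have h1 : (c ^ 2 + 1) • v = 0 := by
    have h2 := hI v
    rw [h, map_smul, h, smul_smul] at h2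
    have h3 : (c ^ 2 + 1) • v = (c * c) • v + v := by rw [add_smul, one_smul, pow_two]
    rw [h3, h2]
    simp
  exact (smul_eq_zero.mp h1).resolve_left (sq_add_one_ne c)

/-- Independence of `v` and `I v`. -/
theorem indep {v : V} {a b : ZMod 3} (hI : ∀ w, I (I w) = -w) (hv : v ≠ 0)
    (h : a • v + b • I v = 0) : a = 0 ∧ b = 0 := by
  by_cases hb : b = 0
  · subst hb
    rw [zero_smul, add_zero] at h
    exact ⟨(smul_eq_zero.mp h).resolve_right hv, rfl⟩
  · exfalso
    apply hv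
    apply eq_zero_of_eigen (I := I) (c := -(b⁻¹ * a)) hI
    have h2 : b • I v = -(a • v) := eq_neg_of_add_eq_zero_right h
    calc I v = b⁻¹ • (b • I v) := by rw [smul_smul, inv_mul_cancel₀ hb, one_smul]
      _ = -(b⁻¹ * a) • v := by rw [h2]; module

/-- The key computation: `V` is spanned by `v₀` and `I v₀`. -/
theorem mem_span (hI : ∀ w, I (I w) = -w) (hJ : ∀ w, J (J w) = -w) (hIJ : ∀ w, I (J w) = -J (I w))
    (hP : ∀ v : V, v ≠ 0 → ∃ a b : ZMod 3, J v = a • v + b • I v) {v₀ : V} (hv₀ : v₀ ≠ 0) (u : V) :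
    ∃ s t : ZMod 3, u = s • v₀ + t • I v₀ := by
  by_contra hu
  push Not at hu
  have hmemW : ∀ x : V, (∃ s t : ZMod 3, x = s • v₀ + t • I v₀) → ∃ s t : ZMod 3, I x = s • v₀ + t • I v₀ := by
    rintro x ⟨s, t, rfl⟩
    refine ⟨-t, s, ?_⟩
    rw [map_add, map_smul, map_smul, hI]
    module
  have hu0 : u ≠ 0 := by
    rintro rfl
    exact hu 0 0 (by simp)
  have hv0u : v₀ + u ≠ 0 := by
    intro h
    apply hu (-1) 0
    rw [eq_neg_of_add_eq_zero_right h]
    simp
  obtain ⟨α, β, hαβ⟩ := hP v₀ hv₀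
  -- every vector outside `W₁` has the same coefficients
  have key : ∀ w : V, (∀ s t : ZMod 3, w ≠ s • v₀ + t • I v₀) → J w = α • w + β • I w := by
    intro w hw
    have hw0 : w ≠ 0 := by
      rintro rfl
      exact hw 0 0 (by simp)
    have hv0w : v₀ + w ≠ 0 := by
      intro h
      apply hw (-1) 0
      rw [eq_neg_of_add_eq_zero_right h]
      simp
    obtain ⟨α', β', hw'⟩ := hP w hw0
    obtain ⟨a, b, hab⟩ := hP (v₀ + w) hv0w
    rw [map_add, map_add, hαβ, hw'] at hab
    -- `x = (α - a) v₀ + (β - b) I v₀ = -(α' - a) w - (β' - b) I w`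
    have hx : (α - a) • v₀ + (β - b) • I v₀ = (a - α') • w + (b - β') • I w := by
      linear_combination (norm := module) hab
    set p := a - α' with hp
    set q := b - β' with hq
    by_cases hpq : p = 0 ∧ q = 0
    · have h0 : (α - a) • v₀ + (β - b) • I v₀ = 0 := by
        rw [hx, hpq.1, hpq.2]
        simp
      obtain ⟨h1, h2⟩ := indep hI hv₀ h0
      have e1 : α' = α := by
        have : a - α' = 0 := hpq.1
        linear_combination -h1 - this
      have e2 : β' = β := by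
        have : b - β' = 0 := hpq.2
        linear_combination -h2 - this
      rw [hw', e1, e2]
    · exfalso
      have hne := sq_add_sq_ne hpq
      set x := (α - a) • v₀ + (β - b) • I v₀ with hxdef
      have hxW : ∃ s t : ZMod 3, x = s • v₀ + t • I v₀ := ⟨_, _, rfl⟩
      obtain ⟨s', t', hIx⟩ := hmemW x hxW
      have hIx' : I x = p • I w - q • w := by
        rw [hx, map_add, map_smul, map_smul, hI]
        module
      have hcomb : (p ^ 2 + q ^ 2) • w = p • x - q • I x := by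
        rw [hIx', hx]
        module
      have hw2 : w = (p ^ 2 + q ^ 2)⁻¹ • (p • x - q • I x) := by
        rw [← hcomb, smul_smul, inv_mul_cancel₀ hne, one_smul]
      apply hw ((p ^ 2 + q ^ 2)⁻¹ * (p * (α - a) - q * s'))
        ((p ^ 2 + q ^ 2)⁻¹ * (p * (β - b) - q * t'))
      rw [hw2, hIx, hxdef]
      module
  have h1 := key u hu
  have hIu : ∀ s t : ZMod 3, I u ≠ s • v₀ + t • I v₀ := by
    intro s t h
    apply hu t (-s)
    have h2 := hI u
    rw [h, map_add, map_smul, map_smul, hI] at h2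
    have h3 : u = -(s • I v₀ + t • -v₀) := by rw [h2, neg_neg]
    rw [h3]
    module
  have h2 := key (I u) hIu
  rw [hI] at h2
  have h3 : J (I u) = - I (J u) := by
    rw [hIJ, neg_neg]
  rw [h1, map_add, map_smul, map_smul, hI] at h3
  have h4 : (2 * α) • I u + (-(2 * β)) • u = 0 := by
    linear_combination (norm := module) h3 - h2
  have h5 := indep (v := u) (a := -(2 * β)) (b := 2 * α) hI hu0 (by rw [add_comm]; exact h4)
  have hα : α = 0 := by
    have : (2 : ZMod 3) * α = 0 := h5.2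
    have h6 : α = 2 * (2 * α) := by
      have : (2 * 2 : ZMod 3) = 1 := by decide
      calc α = (2 * 2 : ZMod 3) * α := by rw [this, one_mul]
        _ = 2 * (2 * α) := by ring
    rw [h6, this, mul_zero]
  have hβ : β = 0 := by
    have h7 : (2 : ZMod 3) * β = 0 := by
      have := h5.1
      linear_combination -this
    have h6 : β = 2 * (2 * β) := by
      have : (2 * 2 : ZMod 3) = 1 := by decide
      calc β = (2 * 2 : ZMod 3) * β := by rw [this, one_mul]
        _ = 2 * (2 * β) := by ring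
    rw [h6, h7, mul_zero]
  rw [hα, hβ, zero_smul, zero_smul, add_zero] at h1
  have h8 := hJ u
  rw [h1, map_zero] at h8
  exact hu0 (neg_eq_zero.mp h8.symm)

/-- Under the same hypotheses, `V` has nine elements. -/
theorem card_eq_nine [Finite V] (hI : ∀ w, I (I w) = -w) (hJ : ∀ w, J (J w) = -w)
    (hIJ : ∀ w, I (J w) = -J (I w))
    (hP : ∀ v : V, v ≠ 0 → ∃ a b : ZMod 3, J v = a • v + b • I v) {v₀ : V} (hv₀ : v₀ ≠ 0) :
    Nat.card V = 9 := by
  let f : ZMod 3 × ZMod 3 → V := fun x => x.1 • v₀ + x.2 • I v₀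
  have hf : Function.Bijective f := by
    constructor
    · rintro ⟨a, b⟩ ⟨c, d⟩ h
      have h1 : (a - c) • v₀ + (b - d) • I v₀ = 0 := by
        have h' : a • v₀ + b • I v₀ = c • v₀ + d • I v₀ := h
        linear_combination (norm := module) h'
      obtain ⟨h2, h3⟩ := indep hI hv₀ h1
      exact Prod.ext (sub_eq_zero.mp h2) (sub_eq_zero.mp h3)
    · intro u
      obtain ⟨s, t, h⟩ := mem_span hI hJ hIJ hP hv₀ u
      exact ⟨(s, t), h.symm⟩
  rw [← Nat.card_congr (Equiv.ofBijective f hf), Nat.card_prod]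
  simp

/-- There is a nonzero vector on which `J` is a combination of `1` and `I`. -/
theorem exists_plane [Nontrivial V] (h3 : (3 : ZMod 3) = 0) (hI : ∀ w, I (I w) = -w) (hJ : ∀ w, J (J w) = -w)
    (hIJ : ∀ w, I (J w) = -J (I w)) :
    ∃ v₀ : V, v₀ ≠ 0 ∧ ∃ a b : ZMod 3, J v₀ = a • v₀ + b • I v₀ := by
  by_cases hall : ∀ w : V, w - I w - J w = 0
  · obtain ⟨v, hv⟩ := exists_ne (0 : V)
    refine ⟨v, hv, 1, -1, ?_⟩
    have := hall v
    rw [one_smul, neg_smul, one_smul]
    linear_combination (norm := module) -this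
  · push Not at hall
    obtain ⟨w, hw⟩ := hall
    refine ⟨w - I w - J w, hw, -1, -1, ?_⟩
    rw [neg_smul, neg_smul, one_smul, one_smul]
    simp only [map_sub, hI, hJ, hIJ]
    have e : (3 : ZMod 3) • w = 0 := by rw [h3, zero_smul]
    linear_combination (norm := module) e

end Linear

section Group

variable {V Γ : Type*} [AddCommGroup V] [Module (ZMod 3) V] [Finite V] [Nontrivial V] [Group Γ]

theorem q8_gens : ∀ w : QuaternionGroup 2, ∃ i j : Fin 4, w = (a 1) ^ (i : ℕ) * (xa 0) ^ (j : ℕ) := by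
  decide

theorem q8_rel1 : (a 1 * a 1 : QuaternionGroup 2) = a 2 := by decide
theorem q8_rel2 : (xa 0 * xa 0 : QuaternionGroup 2) = a 2 := by decide
theorem q8_rel3 : (a 2 * a 2 : QuaternionGroup 2) = 1 := by decide
theorem q8_rel4 : (a 2 : QuaternionGroup 2) ≠ 1 := by decide
theorem q8_rel5 : (a 1 * xa 0 : QuaternionGroup 2) = a 2 * (xa 0 * a 1) := by decide
theorem q8_sq : ∀ w : QuaternionGroup 2, w = 1 ∨ w = a 2 ∨ w * w = a 2 := by decide

/-- The main lemma. -/
theorem card_eq_nine_of_transitive (ρ : Γ →* Module.End (ZMod 3) V) (Q : Subgroup Γ) [hQ : Q.Normal]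
    (e : Q ≃* QuaternionGroup 2)
    (hfpf : ∀ q ∈ Q, q ≠ 1 → ∀ v, ρ q v = v → v = 0)
    (htrans : ∀ v w : V, v ≠ 0 → w ≠ 0 → ∃ g, ρ g v = w) : Nat.card V = 9 := by
  let φ : QuaternionGroup 2 →* Γ := Q.subtype.comp e.symm.toMonoidHom
  have hφQ : ∀ w, φ w ∈ Q := fun w => (e.symm w).2
  have hφsurj : ∀ q ∈ Q, ∃ w, φ w = q := fun q hq => ⟨e ⟨q, hq⟩, by simp [φ]⟩
  have hφinj : Function.Injective φ := Q.subtype_injective.comp e.symm.injective
  set i : Γ := φ (a 1) with hi
  set j : Γ := φ (xa 0) with hj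
  set z : Γ := φ (a 2) with hz
  have hzz : z * z = 1 := by rw [hz, ← map_mul, q8_rel3, map_one]
  have hz1 : z ≠ 1 := by
    intro h
    apply q8_rel4
    apply hφinj
    rw [map_one]
    exact h
  have hρz : ∀ v, ρ z v = -v := by
    intro v
    have h1 : ρ z (v + ρ z v) = v + ρ z v := by
      rw [map_add, ← Module.End.mul_apply, ← map_mul, hzz, map_one, Module.End.one_apply, add_comm]
    have h2 := hfpf z (hφQ _) hz1 _ h1
    exact (eq_neg_of_add_eq_zero_right h2)
  have hsq : ∀ q ∈ Q, q ≠ 1 → q ≠ z → ∀ w, ρ q (ρ q w) = -w := by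
    intro q hq h1 h2 w
    obtain ⟨r, rfl⟩ := hφsurj q hq
    rcases q8_sq r with h | h | h
    · exact absurd (by rw [h, map_one]) h1
    · exact absurd (by rw [h]) h2
    · rw [← Module.End.mul_apply, ← map_mul, ← map_mul, h, hρz]
  have hne1 : ∀ r : QuaternionGroup 2, r ≠ 1 → φ r ≠ 1 := by
    intro r hr h
    apply hr
    apply hφinj
    rw [map_one]
    exact h
  have hnez : ∀ r : QuaternionGroup 2, r ≠ a 2 → φ r ≠ z := by
    intro r hr h
    exact hr (hφinj h)
  have hI : ∀ w, ρ i (ρ i w) = -w :=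
    hsq i (hφQ _) (hne1 _ (by decide)) (hnez _ (by decide))
  have hJ : ∀ w, ρ j (ρ j w) = -w :=
    hsq j (hφQ _) (hne1 _ (by decide)) (hnez _ (by decide))
  have hIJ : ∀ w, ρ i (ρ j w) = -ρ j (ρ i w) := by
    intro w
    rw [← Module.End.mul_apply, ← map_mul, hi, hj, ← map_mul, q8_rel5, map_mul, map_mul, map_mul]
    rw [Module.End.mul_apply, ← hz, hρz, map_mul, Module.End.mul_apply]
  obtain ⟨v₀, hv₀, α, β, hαβ⟩ := exists_plane (I := ρ i) (J := ρ j) (by decide) hI hJ hIJ
  -- the plane is `Q`-stable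
  have hstabI : ∀ s t : ZMod 3, ∃ s' t' : ZMod 3, ρ i (s • v₀ + t • ρ i v₀) = s' • v₀ + t' • ρ i v₀ := by
    intro s t
    refine ⟨-t, s, ?_⟩
    rw [map_add, map_smul, map_smul, hI]
    module
  have hstabJ : ∀ s t : ZMod 3, ∃ s' t' : ZMod 3, ρ j (s • v₀ + t • ρ i v₀) = s' • v₀ + t' • ρ i v₀ := by
    intro s t
    refine ⟨s * α + t * β, s * β - t * α, ?_⟩
    have h1 : ρ j (ρ i v₀) = - ρ i (ρ j v₀) := by rw [hIJ, neg_neg]
    rw [map_add, map_smul, map_smul, h1, hαβ, map_add, map_smul, map_smul, hI]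
    module
  have hstabPow : ∀ (g : Γ), (∀ s t : ZMod 3, ∃ s' t' : ZMod 3, ρ g (s • v₀ + t • ρ i v₀) = s' • v₀ + t' • ρ i v₀) →
      ∀ n : ℕ, ∀ s t : ZMod 3, ∃ s' t' : ZMod 3, ρ (g ^ n) (s • v₀ + t • ρ i v₀) = s' • v₀ + t' • ρ i v₀ := by
    intro g hg n
    induction n with
    | zero =>
      intro s t
      exact ⟨s, t, by simp⟩
    | succ n ih =>
      intro s t
      obtain ⟨s₁, t₁, h1⟩ := hg s t
      obtain ⟨s₂, t₂, h2⟩ := ih s₁ t₁
      refine ⟨s₂, t₂, ?_⟩
      rw [pow_succ, map_mul, Module.End.mul_apply, h1, h2]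
  have hstab : ∀ q ∈ Q, ∃ s' t' : ZMod 3, ρ q v₀ = s' • v₀ + t' • ρ i v₀ := by
    intro q hq
    obtain ⟨r, rfl⟩ := hφsurj q hq
    obtain ⟨m, n, hr⟩ := q8_gens r
    obtain ⟨s₁, t₁, h1⟩ := hstabPow j hstabJ n 1 0
    obtain ⟨s₂, t₂, h2⟩ := hstabPow i hstabI m s₁ t₁
    refine ⟨s₂, t₂, ?_⟩
    rw [hr, map_mul, map_pow, map_pow, map_mul, Module.End.mul_apply, ← hi, ← hj]
    have h3 : ρ (j ^ (n : ℕ)) v₀ = s₁ • v₀ + t₁ • ρ i v₀ := by
      rw [← h1]
      simp
    rw [h3, h2]
  -- all vectors are in a plane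
  have hP : ∀ v : V, v ≠ 0 → ∃ a b : ZMod 3, ρ j v = a • v + b • ρ i v := by
    intro v hv
    obtain ⟨g, hg⟩ := htrans v₀ v hv₀ hv
    have hgg : ∀ x, ρ g⁻¹ (ρ g x) = x := fun x => by
      rw [← Module.End.mul_apply, ← map_mul]
      simp
    have hgg' : ∀ x, ρ g (ρ g⁻¹ x) = x := fun x => by
      rw [← Module.End.mul_apply, ← map_mul]
      simp
    set i' := g⁻¹ * i * g with hi'
    set j' := g⁻¹ * j * g with hj'
    have hi'Q : i' ∈ Q := by
      have := hQ.conj_mem i (hφQ _) g⁻¹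
      simpa [hi'] using this
    have hj'Q : j' ∈ Q := by
      have := hQ.conj_mem j (hφQ _) g⁻¹
      simpa [hj'] using this
    have hi'1 : i' ≠ 1 := by
      intro h
      apply hne1 (a 1) (by decide)
      have : i = g * i' * g⁻¹ := by rw [hi']; group
      rw [h] at this
      simpa using this
    have hi'z : i' ≠ z := by
      intro h
      have hc : ∀ x : Γ, x * z * x⁻¹ = z := by
        intro x
        have h1 : x * z * x⁻¹ ∈ Q := hQ.conj_mem z (hφQ _) x
        by_contra hne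
        have h2 : x * z * x⁻¹ ≠ 1 := by
          intro h3
          apply hz1
          have : z = x⁻¹ * (x * z * x⁻¹) * x := by group
          rw [this, h3]
          simp
        have h4 := hsq _ h1 h2 hne
        have h5 : (x * z * x⁻¹) * (x * z * x⁻¹) = 1 := by
          have : (x * z * x⁻¹) * (x * z * x⁻¹) = x * (z * z) * x⁻¹ := by group
          rw [this, hzz]
          simp
        obtain ⟨v', hv'⟩ := exists_ne (0 : V)
        have h6 := h4 v'
        rw [← Module.End.mul_apply, ← map_mul, h5, map_one, Module.End.one_apply] at h6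
        have h7 := hfpf _ h1 h2 v'
        have h8 : (2 : ZMod 3) • v' = 0 := by
          have : (2 : ZMod 3) • v' = v' + v' := by rw [two_smul]
          rw [this]
          nth_rewrite 1 [h6]
          simp
        have h9 := (smul_eq_zero.mp h8).resolve_left (by decide)
        exact hv' h9
      have h1 : i = z := by
        have : i = g * i' * g⁻¹ := by rw [hi']; group
        rw [this, h, hc]
      exact hnez (a 1) (by decide) h1
    obtain ⟨c, d, hcd⟩ := hstab i' hi'Q
    obtain ⟨c', d', hcd'⟩ := hstab j' hj'Q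
    have hd : d ≠ 0 := by
      rintro rfl
      rw [zero_smul, add_zero] at hcd
      exact hv₀ (eq_zero_of_eigen (hsq i' hi'Q hi'1 hi'z) hcd)
    have hIv : ρ i v₀ = d⁻¹ • (ρ i' v₀ - c • v₀) := by
      rw [hcd]
      calc ρ i v₀ = (d⁻¹ * d) • ρ i v₀ := by rw [inv_mul_cancel₀ hd, one_smul]
        _ = d⁻¹ • (c • v₀ + d • ρ i v₀ - c • v₀) := by module
    have h1 : ρ j' v₀ = (c' - d' * d⁻¹ * c) • v₀ + (d' * d⁻¹) • ρ i' v₀ := by
      rw [hcd', hIv]
      module
    have hi'v : ρ g (ρ i' v₀) = ρ i v := by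
      rw [hi', map_mul, map_mul, Module.End.mul_apply, Module.End.mul_apply, hgg', hg]
    have hj'v : ρ g (ρ j' v₀) = ρ j v := by
      rw [hj', map_mul, map_mul, Module.End.mul_apply, Module.End.mul_apply, hgg', hg]
    refine ⟨c' - d' * d⁻¹ * c, d' * d⁻¹, ?_⟩
    rw [← hj'v, h1, map_add, map_smul, map_smul, hg, hi'v]
  exact card_eq_nine hI hJ hIJ hP hv₀

end Group

end Cfsg.Agent.Lib.GagolaSol.Q8Dim
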